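import Cfsg.Agent.Sp5.Top
import Cfsg.Agent.Pres.A5

/-! The natural module for `A₅ = SL₂(4)`. -/

set_option autoImplicit false

namespace Cfsg.Agent.Sp5

open Subgroup

/-- The alternating group of degree five. -/
abbrev A5 : Type := alternatingGroup (Fin 5)

/-- An involution. -/
def aw : A5 := ⟨Equiv.swap 0 1 * Equiv.swap 2 3, Equiv.Perm.mem_alternatingGroup.2 (by decide)⟩
/-- An involution. -/
def as : A5 := ⟨Equiv.swap 0 1 * Equiv.swap 3 4, Equiv.Perm.mem_alternatingGroup.2 (by decide)⟩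
/-- An element of order three. -/
def ar : A5 := ⟨Equiv.swap 0 1 * Equiv.swap 0 2, Equiv.Perm.mem_alternatingGroup.2 (by decide)⟩

theorem card_A5 : Nat.card A5 = 60 := by rw [nat_card_alternatingGroup]; simp [Nat.factorial]

theorem orderOf_ar : orderOf ar = 3 := orderOf_eq_prime (Subtype.ext (by decide))
  (fun e => absurd (congrArg Subtype.val e) (by decide))

theorem orderOf_aws : orderOf (aw * as) = 3 := orderOf_eq_prime (Subtype.ext (by decide))
  (fun e => absurd (congrArg Subtype.val e) (by decide))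

theorem orderOf_a5y : orderOf Pres.a5y = 5 :=
  have := Fact.mk Nat.prime_five
  orderOf_eq_prime Pres.a5y_pow (fun e => absurd (congrArg Subtype.val e) (by decide +kernel))

variable {G : Type*} [Group G]

/-- `A₅` acting on an elementary abelian normal `2`-subgroup, with elements of odd order acting
without fixed points. -/
structure Mdl (ι : A5 →* G) (N : Subgroup G) : Prop where
  normal : N.Normal
  sq : ∀ x ∈ N, x * x = 1
  fpf : ∀ g : A5, IsOd g → ∀ x ∈ N, ι g * x = x * ι g → x = 1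

theorem Mdl.prod {H : Type*} [Group H] {ι : A5 →* G} {N : Subgroup G} {κ : A5 →* H}
    {M : Subgroup H} (h : Mdl ι N) (h' : Mdl κ M) : Mdl (ι.prod κ) (N.prod M) :=
  ⟨have := h.normal; have := h'.normal; inferInstance,
    fun x hx => Prod.ext (h.sq _ hx.1) (h'.sq _ hx.2), fun g hg x hx e =>
      Prod.ext (h.fpf g hg _ hx.1 (congrArg Prod.fst e)) (h'.fpf g hg _ hx.2 (congrArg Prod.snd e))⟩

variable {ι : A5 →* G} {N : Subgroup G}

theorem Mdl.norm (h : Mdl ι N) {g : A5} (hg : orderOf g = 3) {x : G} (hx : x ∈ N) :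
    ι g * (ι g * x * (ι g)⁻¹) * (ι g)⁻¹ = x * (ι g * x * (ι g)⁻¹) := by
  have h1 := h.normal.conj_mem x hx (ι g)
  have h2 := h.normal.conj_mem _ h1 (ι g)
  have h3 : ι g * ι g * ι g = 1 := by
    rw [← map_mul, ← map_mul, ← map_one ι, ← pow_orderOf_eq_one g, hg]; simp [pow_succ]
  have h4 := h.fpf g (Or.inl hg) _ (mul_mem (mul_mem hx h1) h2) (by
    rw [← mul_inv_eq_iff_eq_mul]
    conv_rhs => rw [mul_assoc x, comm_of_mul_self h.sq hx (mul_mem h1 h2)]
    calc _ = ι g * x * (ι g)⁻¹ * (ι g * (ι g * x * (ι g)⁻¹) * (ι g)⁻¹) *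
          (ι g * ι g * ι g * x * (ι g * ι g * ι g)⁻¹) := by group
      _ = _ := by rw [h3]; group)
  rw [← inv_eq_of_mul_self (h.sq _ (mul_mem hx h1)), eq_inv_of_mul_eq_one_right h4]

theorem Mdl.conj_ws (h : Mdl ι N) {x : G} (hx : x ∈ N) (hw : ι aw * x * (ι aw)⁻¹ = x) :
    ι aw * (ι as * x * (ι as)⁻¹) * (ι aw)⁻¹ = ι as * x * (ι as)⁻¹ * x := by
  have h1 := h.norm orderOf_aws (h.normal.conj_mem x hx (ι as))
  have h2 : ι (aw * as) * (ι as * x * (ι as)⁻¹) * (ι (aw * as))⁻¹ = x := by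
    calc _ = ι (aw * as * as) * x * (ι (aw * as * as))⁻¹ := by simp only [map_mul]; group
      _ = x := by rw [show aw * as * as = aw from Subtype.ext (by decide), hw]
  rw [h2] at h1
  rw [← h1, map_mul]; group

theorem Mdl.exists_fixed [Finite G] (h : Mdl ι N) (hN : N ≠ ⊥) : ∃ a ∈ N, a ≠ 1 ∧
    ι aw * a * (ι aw)⁻¹ = a ∧ ι (ar⁻¹ * aw * ar) * a * (ι (ar⁻¹ * aw * ar))⁻¹ = a := by
  have := h.normal
  obtain ⟨b, hb, hb1⟩ := (bot_or_exists_ne_one N).resolve_left hN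
  have key : ∀ g : A5, g * g = 1 → ∀ b ∈ N, b ≠ 1 → ∃ a, (a = b ∨ a = br b (ι g)) ∧ a ≠ 1 ∧
      ι g * a * (ι g)⁻¹ = a := fun g hg b hb hb1 => by
    by_cases e : br b (ι g) = 1
    · exact ⟨b, Or.inl rfl, hb1, by rw [← (br_eq_one_iff (h.sq b hb)).1 e, mul_inv_cancel_right]⟩
    · exact ⟨_, Or.inr rfl, e, by
        rw [← br_comm h.sq (fun d hd => this.conj_mem d hd _)
          (by rw [← map_mul, hg, map_one]; exact one_mem N) hb, mul_inv_cancel_right]⟩
  obtain ⟨c, hc, hc1, hc2⟩ := key aw (Subtype.ext (by decide)) b hb hb1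
  have hcN : c ∈ N := by
    rcases hc with rfl | rfl
    exacts [hb, br_mem (fun d hd => this.conj_mem d hd _) hb]
  obtain ⟨a, rfl | rfl, ha1, ha2⟩ := key (ar⁻¹ * aw * ar) (Subtype.ext (by decide)) c hcN hc1
  · exact ⟨a, hcN, ha1, hc2, ha2⟩
  · refine ⟨_, br_mem (fun d hd => this.conj_mem d hd _) hcN, ha1, ?_, ha2⟩
    calc _ = ι aw * c * (ι aw)⁻¹ * (ι (aw * (ar⁻¹ * aw * ar)) * c *
          (ι (aw * (ar⁻¹ * aw * ar)))⁻¹) := by simp only [br, map_mul]; group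
      _ = ι aw * c * (ι aw)⁻¹ *
            (ι (ar⁻¹ * aw * ar) * (ι aw * c * (ι aw)⁻¹) * (ι (ar⁻¹ * aw * ar))⁻¹) := by
          rw [show aw * (ar⁻¹ * aw * ar) = ar⁻¹ * aw * ar * aw from Subtype.ext (by decide),
            map_mul _ _ aw]
          group
      _ = _ := by rw [hc2, br]

theorem card_sup_zpowers_le [Finite G] (hN : ∀ x ∈ N, x * x = 1) {E : Subgroup G} (hE : E ≤ N)
    {x : G} (hx : x ∈ N) : Nat.card ↥(E ⊔ zpowers x) ≤ Nat.card E * 2 := by
  refine (Nat.le_of_dvd (Nat.mul_pos Nat.card_pos Nat.card_pos) (Local.card_sup_dvd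
    (zpowers_le.2 (Local.mem_normalizer_of_conj_mem fun e he => ?_)))).trans
    (Nat.mul_le_mul_left _ ?_)
  · rwa [comm_of_mul_self hN hx (hE he), mul_inv_cancel_right]
  · rw [Nat.card_zpowers]
    exact Nat.le_of_dvd two_pos (orderOf_dvd_of_pow_eq_one (by rw [pow_two, hN x hx]))

theorem Mdl.card_le [Finite G] (h : Mdl ι N) {a : G} (ha : a ∈ N) (h1 : ι aw * a * (ι aw)⁻¹ = a)
    (h2 : ι (ar⁻¹ * aw * ar) * a * (ι (ar⁻¹ * aw * ar))⁻¹ = a) :
    Nat.card ↥(zpowers a ⊔ ι.range) ≤ 960 := by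
  have hb := h.normal.conj_mem a ha (ι ar)
  set b := ι ar * a * (ι ar)⁻¹ with hbd
  have h3 : ι aw * b * (ι aw)⁻¹ = b := by
    calc _ = ι ar * (ι (ar⁻¹ * aw * ar) * a * (ι (ar⁻¹ * aw * ar))⁻¹) * (ι ar)⁻¹ := by
          simp only [hbd, map_mul, map_inv]; group
      _ = b := by rw [h2]
  have hc := h.normal.conj_mem a ha (ι as)
  have hd := h.normal.conj_mem b hb (ι as)
  have h4 := h.norm orderOf_ar ha
  rw [← hbd] at h4
  have h5 := h.conj_ws ha h1
  have h6 := h.conj_ws hb h3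
  have hs : ∀ x : G, ι as * (ι as * x * (ι as)⁻¹) * (ι as)⁻¹ = x := fun x => by
    calc _ = ι (as * as) * x * (ι (as * as))⁻¹ := by simp only [map_mul]; group
      _ = x := by rw [show as * as = 1 from Subtype.ext (by decide)]; simp
  have h7 : ι ar * (ι as * b * (ι as)⁻¹) * (ι ar)⁻¹ = ι as * a * (ι as)⁻¹ := by
    calc _ = ι (ar * as * ar) * a * (ι (ar * as * ar))⁻¹ := by simp only [hbd, map_mul]; group
      _ = _ := by rw [show ar * as * ar = as from Subtype.ext (by decide)]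
  have h8 : ι ar * (ι as * a * (ι as)⁻¹) * (ι ar)⁻¹ = ι as * a * (ι as)⁻¹ * (ι as * b * (ι as)⁻¹) := by
    calc _ = ι (ar * as) * a * (ι (ar * as))⁻¹ := by simp only [map_mul]; group
      _ = ι as * (ι ar * b * (ι ar)⁻¹) * (ι as)⁻¹ := by
          rw [show ar * as = as * ar * ar from Subtype.ext (by decide)]
          simp only [hbd, map_mul]; group
      _ = _ := by rw [h4]; group
  set c := ι as * a * (ι as)⁻¹ with hcd
  set d := ι as * b * (ι as)⁻¹ with hdd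
  let V := ⊥ ⊔ zpowers a ⊔ zpowers b ⊔ zpowers c ⊔ zpowers d
  have va : a ∈ V := mem_sup_left (mem_sup_left (mem_sup_left (mem_sup_right (mem_zpowers _))))
  have vb : b ∈ V := mem_sup_left (mem_sup_left (mem_sup_right (mem_zpowers _)))
  have vc : c ∈ V := mem_sup_left (mem_sup_right (mem_zpowers _))
  have vd : d ∈ V := mem_sup_right (mem_zpowers _)
  have hV : Nat.card V ≤ 16 := by
    have e1 := card_sup_zpowers_le h.sq bot_le ha
    have l1 := sup_le bot_le (zpowers_le.2 ha)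
    have e2 := card_sup_zpowers_le h.sq l1 hb
    have l2 := sup_le l1 (zpowers_le.2 hb)
    have e3 := card_sup_zpowers_le h.sq l2 hc
    have e4 := card_sup_zpowers_le h.sq (sup_le l2 (zpowers_le.2 hc)) hd
    rw [card_bot] at e1
    change Nat.card V ≤ _ at e4
    omega
  have key : ∀ g : G, g * a * g⁻¹ ∈ V → g * b * g⁻¹ ∈ V → g * c * g⁻¹ ∈ V → g * d * g⁻¹ ∈ V →
      g ∈ normalizer (V : Set G) := fun g e1 e2 e3 e4 => Local.mem_normalizer_of_conj_mem
    (show V ≤ V.comap (MulAut.conj g).toMonoidHom from sup_le (sup_le (sup_le (sup_le bot_le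
      (zpowers_le.2 e1)) (zpowers_le.2 e2)) (zpowers_le.2 e3)) (zpowers_le.2 e4))
  have kw := key (ι aw) (h1.symm ▸ va) (h3.symm ▸ vb) (h5.symm ▸ mul_mem vc va)
    (h6.symm ▸ mul_mem vd vb)
  have ks := key (ι as) vc vd ((hs a).symm ▸ va) ((hs b).symm ▸ vb)
  have kr := key (ι ar) vb (h4.symm ▸ mul_mem va vb) (h8.symm ▸ mul_mem vc vd) (h7.symm ▸ vc)
  have hn : ι.range ≤ normalizer (V : Set G) := by
    rw [MonoidHom.range_eq_map, ← Pres.a5_closure, map_le_iff_le_comap, closure_le]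
    rintro _ (rfl | rfl)
    · rw [show Pres.a5x = ar * ar * aw from Subtype.ext (by decide +kernel)]
      exact mul_mem (mul_mem (mem_comap.2 kr) (mem_comap.2 kr)) (mem_comap.2 kw)
    · rw [show Pres.a5y = as * aw * ar from Subtype.ext (by decide +kernel)]
      exact mul_mem (mul_mem (mem_comap.2 ks) (mem_comap.2 kw)) (mem_comap.2 kr)
  have e1 := Nat.le_of_dvd (Nat.mul_pos Nat.card_pos Nat.card_pos) (Local.card_sup_dvd hn)
  have e2 := card_le_of_le (sup_le_sup_right (zpowers_le.2 va) ι.range)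
  have e3 := Nat.le_of_dvd (by rw [card_A5]; norm_num) (card_range_dvd ι)
  rw [card_A5] at e3
  nlinarith

theorem Mdl.le_card [Finite G] (h : Mdl ι N) (hι : ∀ g, ι g ∈ N → g = 1) {a : G} (ha : a ∈ N)
    (ha1 : a ≠ 1) : 960 ≤ Nat.card ↥(zpowers a ⊔ ι.range) := by
  have := Fact.mk Nat.prime_two
  set H := zpowers a ⊔ ι.range
  have hinj : Function.Injective ι := (injective_iff_map_eq_one ι).2 fun g e => hι g (e ▸ one_mem N)
  have hn : ι.range ≤ normalizer ((N ⊓ H : Subgroup G) : Set G) := fun g hg =>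
    Local.mem_normalizer_of_conj_mem fun x hx => ⟨h.normal.conj_mem x hx.1 g,
      H.mul_mem (H.mul_mem (mem_sup_right hg) hx.2) (H.inv_mem (mem_sup_right hg))⟩
  have e1 := Local.card_sup_of_disjoint hn (disjoint_def.2 (by
    rintro _ hx ⟨g, rfl⟩
    rw [hι g hx.1, map_one]))
  have e2 := card_le_of_le (sup_le inf_le_right le_sup_right : (N ⊓ H) ⊔ ι.range ≤ H)
  rw [e1, ← Nat.card_congr (MonoidHom.ofInjective hinj).toEquiv, card_A5] at e2
  have e3 : Nat.card ↥(N ⊓ H) ≡ 1 [MOD 5] := by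
    by_contra e
    obtain ⟨x, hx, hx1, hc⟩ := LinP.exists_fixed_of_normalizes Nat.prime_five
      ((orderOf_injective ι hinj _).trans orderOf_a5y) (hn ⟨_, rfl⟩) e
    exact hx1 (h.fpf _ (Or.inr orderOf_a5y) x hx.1 hc.symm)
  obtain ⟨k, hk⟩ := (isPGroup_of_pow_four (P := N ⊓ H)
    fun x hx => pow_four_of_mul_self (h.sq x hx.1)).exists_card_eq
  have e4 : 1 < Nat.card ↥(N ⊓ H) := (one_lt_card_iff_ne_bot _).2 fun e =>
    ha1 (mem_bot.1 (e ▸ ⟨ha, mem_sup_left (mem_zpowers a)⟩))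
  have e5 : 2 ^ 4 ≤ Nat.card ↥(N ⊓ H) := by
    rw [hk] at e3 e4 ⊢
    refine Nat.pow_le_pow_right two_pos (not_lt.1 fun e => ?_)
    interval_cases k <;> simp_all [Nat.ModEq]
  omega

theorem Mdl.nonempty_equiv [Finite G] {H : Type*} [Group H] [Finite H] {κ : A5 →* H}
    {M : Subgroup H} (h : Mdl ι N) (h' : Mdl κ M) (hι : ∀ g, ι g ∈ N → g = 1)
    (hκ : ∀ g, κ g ∈ M → g = 1) {a : G} (ha : a ∈ N) (ha1 : a ≠ 1)
    (h1 : ι aw * a * (ι aw)⁻¹ = a) (h2 : ι (ar⁻¹ * aw * ar) * a * (ι (ar⁻¹ * aw * ar))⁻¹ = a)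
    (hG : zpowers a ⊔ ι.range = ⊤) (hM : M ≠ ⊥) (hH : Nat.card H ≤ 960) : Nonempty (G ≃* H) := by
  obtain ⟨b, hb, hb1, h3, h4⟩ := h'.exists_fixed hM
  have e1 := (h.prod h').card_le (a := (a, b)) ⟨ha, hb⟩ (Prod.ext h1 h3) (Prod.ext h2 h4)
  have e2 := h.le_card hι ha ha1
  have e3 := h'.le_card hκ hb hb1
  have hH' : zpowers b ⊔ κ.range = ⊤ := eq_top_of_le_card _ (hH.trans e3)
  rw [hG, card_top] at e2
  rw [hH', card_top] at e3
  set K := zpowers (a, b) ⊔ (ι.prod κ).range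
  have s1 : Function.Surjective ((MonoidHom.fst G H).comp K.subtype) := by
    rw [← MonoidHom.range_eq_top, eq_top_iff, ← hG]
    exact sup_le (zpowers_le.2 ⟨⟨_, mem_sup_left (mem_zpowers _)⟩, rfl⟩)
      fun _ ⟨g, hg⟩ => ⟨⟨_, mem_sup_right ⟨g, rfl⟩⟩, hg⟩
  have s2 : Function.Surjective ((MonoidHom.snd G H).comp K.subtype) := by
    rw [← MonoidHom.range_eq_top, eq_top_iff, ← hH']
    exact sup_le (zpowers_le.2 ⟨⟨_, mem_sup_left (mem_zpowers _)⟩, rfl⟩)
      fun _ ⟨g, hg⟩ => ⟨⟨_, mem_sup_right ⟨g, rfl⟩⟩, hg⟩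
  exact ⟨(MulEquiv.ofBijective _ (s1.bijective_of_nat_card_le (e1.trans e2))).symm.trans
    (MulEquiv.ofBijective _ (s2.bijective_of_nat_card_le (e1.trans e3)))⟩

end Cfsg.Agent.Sp5
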