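import Cfsg.Agent.Sp5.Main

/-! The finite groups with element orders at most five and order divisible by thirty. -/

set_option autoImplicit false

namespace Cfsg.Agent.Sp5

open Subgroup PSL2Rec MulAction

universe u

variable {G : Type u} [Group G] [Finite G]

theorem Le5.card_sylow_dvd (h : Le5 G) {N : Subgroup G} [N.Normal] (hN : IsPGroup 2 N)
    (hN1 : N ≠ ⊥) {p : ℕ} (hp : p = 3 ∨ p = 5) (P : Sylow p G) : Nat.card P ∣ p := by
  have : Fact p.Prime := ⟨by rcases hp with rfl | rfl <;> norm_num⟩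
  have hN' := h.noMul hp
  rcases cyclic_or_quaternion_of_fpf P.isPGroup' (Local.le_normalizer_of_normal' _ N) hN1
    (fun e => by
      obtain ⟨k, hk⟩ := hN.exists_card_eq
      have := this.out.dvd_of_dvd_pow (hk ▸ e)
      rcases hp with rfl | rfl <;> omega)
    (fun c hc hc1 v hv e => h.eq_one_of_commute
      (by unfold IsOd; rw [orderOf_eq_prime (hN'.pow_eq_one P.isPGroup' hc) hc1]; exact hp)
      (h.pow_four hN hv) e.symm) with h1 | ⟨h1, -⟩
  · obtain ⟨g, hg⟩ := h1.exists_ofOrder_eq_natCard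
    exact hg ▸ orderOf_dvd_of_pow_eq_one (Subtype.ext (hN'.pow_eq_one P.isPGroup' g.2))
  · omega

theorem Le5.structure (h : Le5 G) (h2 : 2 ∣ Nat.card G) (h3 : 3 ∣ Nat.card G)
    (h5 : 5 ∣ Nat.card G) : Nonempty (G ≃* alternatingGroup (Fin 6)) ∨
      ((∀ x ∈ Cfsg.pCore 2 G, x * x = 1) ∧
        Nonempty (G ⧸ Cfsg.pCore 2 G ≃* alternatingGroup (Fin 5))) := by
  have := Fact.mk Nat.prime_five
  set N := Cfsg.pCore 2 G with hN
  have hN2 : IsPGroup 2 N := Local.isPGroup_pCore 2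
  have hc := N.card_mul_index
  have hd : ∀ p : ℕ, p.Coprime 2 → p ∣ Nat.card G → p ∣ Nat.card (G ⧸ N) := fun p hp hd =>
    (Local.coprime_card_of_isPGroup hN2 hp).dvd_of_dvd_mul_left (hc ▸ hd)
  have hs : N ≠ ⊥ → ∀ p, p = 3 ∨ p = 5 → ¬ p ^ 2 ∣ Nat.card G := fun hN1 p hp e => by
    have : Fact p.Prime := ⟨by rcases hp with rfl | rfl <;> norm_num⟩
    have := (Sylow.pow_dvd_card_of_pow_dvd_card (default : Sylow p G) e).trans
      (h.card_sylow_dvd hN2 hN1 hp _)
    rcases hp with rfl | rfl <;> omega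
  have h2' : 2 ∣ Nat.card (G ⧸ N) := by
    by_cases hN1 : N = ⊥
    · rw [hN1, card_bot, one_mul] at hc
      rwa [← hc, ← hN1] at h2
    by_contra h2'
    have hX := h.quotient N
    obtain ⟨T⟩ : Nonempty (Sylow 2 (G ⧸ N)) := inferInstance
    obtain ⟨P⟩ : Nonempty (Sylow 3 (G ⧸ N)) := inferInstance
    obtain ⟨Q⟩ : Nonempty (Sylow 5 (G ⧸ N)) := inferInstance
    have h4 := hX.card_eq_mul T P Q
    have key : ∀ p, p = 3 ∨ p = 5 → p ∣ Nat.card (G ⧸ N) → ∀ P : Sylow p (G ⧸ N),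
        Nat.card P = p := fun p hp hd P => by
      have : Fact p.Prime := ⟨by rcases hp with rfl | rfl <;> norm_num⟩
      obtain ⟨a, ha, hP⟩ := exists_card_eq_pow hd P
      have : ¬ 2 ≤ a := fun e => hs hN1 p hp ((pow_dvd_pow p e).trans (hP ▸
        (P : Subgroup (G ⧸ N)).card_subgroup_dvd_card.trans N.card_quotient_dvd_card))
      rw [hP, show a = 1 by omega, pow_one]
    have hT := T.isPGroup'.card_eq_or_dvd.resolve_right fun e =>
      h2' (e.trans (T : Subgroup (G ⧸ N)).card_subgroup_dvd_card)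
    have hQ := key 5 (Or.inr rfl) (hd 5 (by decide) h5) Q
    rw [hT, key 3 (Or.inl rfl) (hd 3 (by decide) h3) P, hQ] at h4
    have h6 := (Q : Subgroup (G ⧸ N)).card_mul_index
    have h7 := Q.card_dvd_index
    have h8 := card_sylow_modEq_one 5 (G ⧸ N)
    rw [hQ, h4] at h6
    rw [show (Q : Subgroup (G ⧸ N)).index = 3 by omega, Nat.dvd_prime Nat.prime_three] at h7
    replace h7 := h7.resolve_right fun e => by rw [e] at h8; exact absurd h8 (by decide)
    rw [Q.card_eq_index_normalizer, index_eq_one] at h7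
    obtain ⟨y, hy⟩ := exists_prime_orderOf_dvd_card' 3 (hd 3 (by decide) h3)
    obtain ⟨x, hx, hx1, e⟩ := LinP.exists_fixed_of_normalizes (P := Q) Nat.prime_three hy
      (h7.ge (mem_top y)) (by rw [hQ]; decide)
    have hx5 := orderOf_eq_prime ((hX.noMul (Or.inr rfl)).pow_eq_one Q.isPGroup' hx) hx1
    have h9 := e.orderOf_mul_eq_mul_orderOf_of_coprime (by rw [hx5, hy]; decide)
    have := hX (x * y)
    rw [hx5, hy] at h9
    omega
  rcases (h.quotient N).classify (fun M hM hM2 => eq_bot_iff.2 ((Local.le_pCore hM hM2).trans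
    (Local.pCore_quotient_eq_bot 2).le)) h2' (hd 3 (by decide) h3) (hd 5 (by decide) h5) with
    ⟨⟨e⟩⟩ | ⟨⟨e⟩⟩
  · obtain ⟨σ, u, hσ, -⟩ := exists_dih_alt5 3 (Or.inl rfl)
    obtain ⟨σ', h1⟩ := QuotientGroup.mk'_surjective N (e.symm σ)
    obtain ⟨u', h4⟩ := QuotientGroup.mk'_surjective N (e.symm u)
    obtain ⟨-, d, -, h6⟩ := h.lift_dih (QuotientGroup.mk' N) (by rwa [QuotientGroup.ker_mk'])
      (σ := σ') (u := u') (by rw [h1, h4]; exact hσ.map (f := e.symm.toMonoidHom) e.symm.injective)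
    exact Or.inr ⟨fun x hx => h.elem hN2 h6 (fun d hd => Normal.conj_mem inferInstance d hd _)
      (fun d hd => Normal.conj_mem inferInstance d hd _) hx, ⟨e⟩⟩
  · have hN1 : N = ⊥ := by_contra fun hN1 => hs hN1 3 (Or.inl rfl) (by
      refine dvd_trans ?_ N.card_quotient_dvd_card
      rw [Nat.card_congr e.toEquiv, nat_card_alternatingGroup]
      simp [Nat.factorial])
    exact Or.inl ⟨((QuotientGroup.quotientBot).symm.trans
      (QuotientGroup.quotientMulEquivOfEq hN1.symm)).trans e⟩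

end Cfsg.Agent.Sp5
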